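import Cfsg.Agent.Lib.Mathieu.Classes
import Cfsg.Agent.Lib.Mathieu.Struct
import Cfsg.Agent.Lib.Grp.Sch
import Cfsg.Agent.Lib.Grp.Prime
import Cfsg.Agent.Lib.Grp.Ind

/-!
Tools for subgroups of given index in the Mathieu groups: normalisers of self-centralising subgroups of prime order,
invariant point sets, and a Sylow 2-subgroup `sT` adapted to the standard base.
-/

namespace Cfsg.Lib.Mathieu

open Cfsg.Lib.Golay Cfsg.Lib.Calc Cfsg.Lib.Grp MulAction Subgroup
open scoped Pointwise

set_option maxRecDepth 100000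

section
variable {A : Type*} [Group A] [Finite A] {p : ℕ} [Fact p.Prime]

omit [Finite A] [Fact p.Prime] in
theorem selfC_of_le {K M : Subgroup A} (h : SelfC p M) (e : K ≤ M) : SelfC p K :=
  ⟨fun d => h.nsq (d.trans (card_dvd_of_le e)), fun X hX x hx => by
    obtain ⟨y, h1, h2⟩ := h.cen (X.map (inclusion e)) ((card_map_of_injective (inclusion_injective e)).trans hX)
      (x := inclusion e x) (by
        rintro _ ⟨y, hy, rfl⟩
        rw [← map_mul, ← map_mul, hx y hy])
    exact inclusion_injective e h2 ▸ h1⟩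

theorem card_inf_normalizer_selfC {K X : Subgroup A} (h : SelfC p K) (e : X ≤ K) (hX : Nat.card X = p) :
    Nat.card ↥(K ⊓ normalizer (X : Set A)) = p * (Nat.card K / p % p) := by
  rw [← h.card_normalizer (X := X.subgroupOf K) ((Nat.card_congr (subgroupOfEquivOfLe e).toEquiv).trans hX),
    ← subgroupOf_normalizer_eq e, ← inf_subgroupOf_left,
    Nat.card_congr (subgroupOfEquivOfLe inf_le_left).toEquiv]

theorem inf_normalizer_le_selfC {K M X : Subgroup A} (h : SelfC p M) (e : X ≤ K) (e' : K ≤ M) (hX : Nat.card X = p)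
    (hc : Nat.card K / p % p = Nat.card M / p % p) : M ⊓ normalizer (X : Set A) ≤ K :=
  (eq_of_le_of_card_ge (inf_le_inf_right _ e') (by
    rw [card_inf_normalizer_selfC h (e.trans e') hX, card_inf_normalizer_selfC (selfC_of_le h e') e hX,
      hc])).symm.trans_le inf_le_left

theorem exists_cj_le {k : ℕ} {T M H : Subgroup A} (h1 : T ≤ M) (h2 : H ≤ M) (hT : Nat.card T = p ^ k)
    (hM : ¬p ^ (k + 1) ∣ Nat.card M) (hH : p ^ k ∣ Nat.card H) : ∃ g ∈ M, ∃ K, Cj g K H ∧ T ≤ K ∧ K ≤ M := by
  obtain ⟨P, hP⟩ := Sylow.exists_subgroup_card_pow_prime p hH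
  have c : Nat.card ((P.map H.subtype).subgroupOf M) = p ^ k :=
    (Nat.card_congr (subgroupOfEquivOfLe ((map_subtype_le _).trans h2)).toEquiv).trans
      ((card_map_of_injective H.subtype_injective).trans hP)
  have c' : Nat.card (T.subgroupOf M) = p ^ k := (Nat.card_congr (subgroupOfEquivOfLe h1).toEquiv).trans hT
  have f : (Nat.card M).factorization p = k := le_antisymm (Nat.le_of_lt_succ (not_le.1 fun e => hM
    ((Nat.Prime.pow_dvd_iff_le_factorization Fact.out Nat.card_pos.ne').2 e)))
    ((Nat.Prime.pow_dvd_iff_le_factorization Fact.out Nat.card_pos.ne').1 (hH.trans (card_dvd_of_le h2)))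
  obtain ⟨g, hg⟩ := exists_smul_eq M (Sylow.ofCard _ (f ▸ c')) (Sylow.ofCard _ (f ▸ c))
  have hg := congrArg (fun S : Sylow p M => (S : Subgroup M)) hg
  simp only [Sylow.coe_subgroup_smul, Sylow.coe_ofCard] at hg
  refine ⟨g, g.2, H.comap (MulAut.conj (g : A)).toMonoidHom, fun _ => Iff.rfl, fun t ht => ?_, fun x hx => ?_⟩
  · have : MulAut.conj g • (⟨t, h1 ht⟩ : M) ∈ (P.map H.subtype).subgroupOf M := hg ▸ smul_mem_pointwise_smul _ _ _ ht
    exact map_subtype_le P this
  · have := mul_mem (mul_mem (inv_mem g.2) (h2 hx)) g.2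
    simpa [mul_assoc] using this

omit [Finite A] [Fact p.Prime] in
theorem Cj.eq_inf_stab {X : Type*} [MulAction A X] {g : A} {K H M : Subgroup A} (h : Cj g K H) (hg : g ∈ M) {s : X}
    (e : K = M ⊓ stabilizer A s) : H = M ⊓ stabilizer A (g • s) :=
  h.eq_smul.trans (e ▸ ((Cj.self hg).inf (Cj.stab rfl)).eq_smul.symm)

omit [Fact p.Prime] in
theorem pow_six_mem {K M : Subgroup A} (h : K ≤ M) (e : Nat.card M = 3 * Nat.card K) {a : A} (ha : a ∈ M)
    (h7 : a ^ 7 = 1) : a ∈ K := by
  have i : (K.subgroupOf M).index = 3 := by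
    have := (K.subgroupOf M).index_mul_card
    rw [Nat.card_congr (subgroupOfEquivOfLe h).toEquiv, e] at this
    exact Nat.eq_of_mul_eq_mul_right Nat.card_pos this
  have := pow_mem_of_index_ne_zero_of_dvd (H := K.subgroupOf M) (by omega) ⟨a, ha⟩ (n := 6) fun m h1 h2 => by
    rw [i] at h2
    interval_cases m <;> norm_num
  have := K.inv_mem (x := a ^ 6) this
  rwa [inv_eq_of_mul_eq_one_right ((pow_succ a 6).symm.trans h7)] at this

end

/-- one pass of images -/
noncomputable def stepM (gs : List ℕ) (m : ℕ) : ℕ := List.rec m (fun c _ s => force s fun s => Nat.lor s (img c s)) gs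

theorem stepM_sub {K : Subgroup M24} {gs : List ℕ} (hg : In 24 5 G.pt K gs) {O : Finset GolayPt}
    (hO : K ≤ stabilizer M24 O) {m : ℕ} (h : G.toF m ⊆ O) : G.toF (stepM gs m) ⊆ O := by
  induction gs with
  | nil => exact h
  | cons c l i =>
    obtain ⟨g, h1, h2⟩ := hg c List.mem_cons_self
    have := i fun d hd => hg d (List.mem_cons_of_mem _ hd)
    change G.toF (force (stepM l m) fun s => Nat.lor s (img c s)) ⊆ O
    rw [force_eq, G.toF_lor, ← Rp.smul_toF h2]
    exact Finset.union_subset this ((show (g : P24) • O = O from hO h1) ▸ Finset.smul_finset_subset_smul_finset this)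

/-- closure of a mask under a list of tables -/
noncomputable def cloM (gs : List ℕ) (k : ℕ) : ℕ → ℕ :=
  Nat.rec (motive := fun _ => ℕ → ℕ) (fun m => m) (fun _ r m => force (stepM gs m) r) k

theorem cloM_sub {K : Subgroup M24} {gs : List ℕ} (hg : In 24 5 G.pt K gs) {O : Finset GolayPt}
    (hO : K ≤ stabilizer M24 O) (k : ℕ) : ∀ m, G.toF m ⊆ O → G.toF (cloM gs k m) ⊆ O := by
  induction k with
  | zero => exact fun _ h => h
  | succ k ih =>
    intro m h
    change G.toF (force (stepM gs m) (cloM gs k)) ⊆ O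
    rw [force_eq]
    exact ih _ (stepM_sub hg hO h)

/-- all invariant sets containing `a` and avoiding `b` pass the test -/
noncomputable def casesOK (gs : List ℕ) (k : ℕ) (t : ℕ → Bool) (rs : List ℕ) : ℕ → ℕ → Bool :=
  List.rec (motive := fun _ => ℕ → ℕ → Bool)
    (fun a b => force (cloM gs k a) fun a => band (Nat.beq (Nat.lor a (cloM gs k b)) 16777215) (band (blt a (2 ^ 24)) (t a)))
    (fun r _ f a b => band (blt r 24) (band (f (Nat.lor a (2 ^ r)) b) (f a (Nat.lor b (2 ^ r))))) rs

theorem stab_compl {K : Subgroup M24} {O : Finset GolayPt} (h : K ≤ stabilizer M24 O) : K ≤ stabilizer M24 Oᶜ :=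
  fun g hg => (smul_compl (g : P24) O).trans (congrArg compl (h hg))

theorem stab_union {K : Subgroup M24} {O O' : Finset GolayPt} (h : K ≤ stabilizer M24 O) (h' : K ≤ stabilizer M24 O') :
    K ≤ stabilizer M24 (O ∪ O') := fun g hg => by
  rw [mem_stabilizer_iff, Finset.smul_finset_union, h hg, h' hg]

theorem exists_mask {K : Subgroup M24} {gs : List ℕ} (hg : In 24 5 G.pt K gs) {O : Finset GolayPt}
    (hO : K ≤ stabilizer M24 O) {k : ℕ} {t : ℕ → Bool} {rs : List ℕ} {a b : ℕ} (ha : G.toF a ⊆ O) (hb : G.toF b ⊆ Oᶜ)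
    (e : casesOK gs k t rs a b = true) : ∃ m < 2 ^ 24, G.toF m = O ∧ t m = true := by
  induction rs generalizing a b with
  | nil =>
    change force (cloM gs k a) (fun a => band (Nat.beq (Nat.lor a (cloM gs k b)) 16777215)
      (band (blt a (2 ^ 24)) (t a))) = true at e
    rw [force_eq, band_eq_true, band_eq_true, blt_iff] at e
    refine ⟨_, e.2.1, (cloM_sub hg hO k a ha).antisymm fun x hx => ?_, e.2.2⟩
    have : x ∈ G.toF 16777215 := G.toF_full ▸ Finset.mem_univ x
    rw [← Nat.eq_of_beq_eq_true e.1, G.toF_lor, Finset.mem_union] at this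
    exact this.resolve_right fun h => Finset.mem_compl.1 (cloM_sub hg (stab_compl hO) k b hb h) hx
  | cons r l ih =>
    change band _ (band (casesOK gs k t l _ _) (casesOK gs k t l _ _)) = true at e
    rw [band_eq_true, band_eq_true, blt_iff] at e
    by_cases h : G.pt r ∈ O
    · exact ih (G.toF_insert a e.1 ▸ Finset.insert_subset h ha) hb e.2.1
    · exact ih ha (G.toF_insert b e.1 ▸ Finset.insert_subset (Finset.mem_compl.2 h) hb) e.2.2

theorem exists_orbit_mask {K : Subgroup M24} {gs : List ℕ} (hg : In 24 5 G.pt K gs) {i : ℕ} (hi : i < 24) {b : ℕ}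
    (hb : K ≤ stabilizer M24 (G.toF b)) (hb' : b.testBit i = false) {k : ℕ} {t : ℕ → Bool} {rs : List ℕ}
    (e : casesOK gs k t rs (2 ^ i) b = true) : ∃ m < 2 ^ 24, t m = true ∧ K ≤ stabilizer M24 (G.toF m) ∧
      Nat.card K = pc m * Nat.card ↥(K ⊓ stabilizer M24 (G.pt i)) := by
  classical
  have hO : K ≤ stabilizer M24 (orbit K (G.pt i)).toFinite.toFinset := fun g hg => by
    rw [mem_stabilizer_iff, ← Finset.coe_inj, Finset.coe_smul_finset, Set.Finite.coe_toFinset]
    exact smul_orbit (⟨g, hg⟩ : K) _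
  obtain ⟨m, h1, h2, h3⟩ := exists_mask hg hO (by
    rw [G.toF_two_pow hi, Finset.singleton_subset_iff, Set.Finite.mem_toFinset]
    exact mem_orbit_self _) (fun x hx => Finset.mem_compl.2 fun h => by
      obtain ⟨g, rfl⟩ := (Set.Finite.mem_toFinset _).1 h
      have := (G.pt_mem_toF hi).1 ((apply_mem_iff (g := g.1.1) (t := G.toF b) (hb g.2)).1 hx)
      simp [hb'] at this) e
  refine ⟨m, h1, h3, h2 ▸ hO, ?_⟩
  rw [card_eq_ncard_orbit_mul K (G.pt i), ← ncard_toF h1, h2, Set.Finite.coe_toFinset]

theorem le_stab_zero (K : Subgroup M24) : K ≤ stabilizer M24 (G.toF 0) := fun g _ => by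
  rw [mem_stabilizer_iff, G.toF_zero, Finset.smul_finset_empty]

theorem stab_pt_le {i : ℕ} (hi : i < 24) : stabilizer M24 (G.pt i) ≤ stabilizer M24 (G.toF (2 ^ i)) := fun g hg => by
  rw [mem_stabilizer_iff, G.toF_two_pow hi, Finset.smul_finset_singleton, hg]

theorem stab_lor {K : Subgroup M24} {a b : ℕ} (h : K ≤ stabilizer M24 (G.toF a)) (h' : K ≤ stabilizer M24 (G.toF b)) :
    K ≤ stabilizer M24 (G.toF (Nat.lor a b)) := G.toF_lor a b ▸ stab_union h h'

theorem stab_xor {K : Subgroup M24} {a : ℕ} (h : K ≤ stabilizer M24 (G.toF a)) :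
    K ≤ stabilizer M24 (G.toF (Nat.xor a 16777215)) := G.toF_compl a ▸ stab_compl h

theorem card_mod_le_fixP {p : ℕ} [Fact p.Prime] {g : P24} (hg : orderOf g = p) {s : Finset GolayPt} (h : g • s = s) :
    s.card % p ≤ (fixP g).card := by
  have := Equiv.Perm.card_compl_support_modEq (p := p) (n := 1)
    (σ := g.subtypePerm (p := (· ∈ s)) fun _ => apply_mem_iff h) (by
      rw [Equiv.Perm.subtypePerm_pow, pow_one]
      ext x
      simp [← hg])
  rw [Fintype.card_coe] at this
  rw [← this]
  refine (Nat.mod_le _ _).trans (Finset.card_le_card_of_injOn Subtype.val (fun x hx => ?_) Subtype.val_injective.injOn)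
  simpa [Subtype.ext_iff] using hx

theorem pc_mod_seven {K : Subgroup M24} (h : 7 ∣ Nat.card K) {m : ℕ} (hm : m < 2 ^ 24)
    (e : K ≤ stabilizer M24 (G.toF m)) : pc m % 7 ≤ 3 := by
  haveI : Fact (Nat.Prime 7) := ⟨by norm_num⟩
  obtain ⟨⟨t, ht⟩, ho⟩ := exists_prime_orderOf_dvd_card' 7 h
  rw [← orderOf_coe, ← orderOf_coe] at ho
  have := card_mod_le_fixP ho (e ht)
  rwa [List.mem_singleton.1 (card_fixP_mem (a := 7) (l := [3]) (by decide +kernel) t.2 ho),
    G.card_toF_pc (by decide) hm] at this

theorem Ch.card_stab {L : List (ℕ × List ℕ)} {M : Subgroup M24} (h : Ch L M) {m : ℕ} (hm : m < 2 ^ 24) :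
    Nat.card ↥(M ⊓ stabilizer M24 (G.toF m)) = ordCh 24 5 (tSet m) (keepM m) L [] :=
  ordCh_spec inj_pt (by decide) (by decide) (fun g _ d hd => Mem.set hm g d hd)
    (keep_keepM (S := G.toF m) (fun _ hi => G.pt_mem_toF hi) fun _ hg _ => apply_mem_iff hg) h.chn

theorem Ch.card_stab' {L : List (ℕ × List ℕ)} {M : Subgroup M24} (h : Ch L M) {t : ℕ → Bool} (ht : Mem M t) {c : ℕ}
    (hc : tOK t c = true) (m : ℕ) :
    Nat.card ↥(M ⊓ stabilizer M24 (G.toF m)) = ordCh 24 5 (tSet (img c m)) (keepM (img c m)) L [] := by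
  obtain ⟨g, h1, h2⟩ := ht.exists hc
  rw [← h.card_stab (Rp.img_lt h2 m), ((Cj.self h1).inf (cjSt (Rp.smul_toF h2 m))).card]

/-- chain of a Sylow 2-subgroup -/
def LsT : List (ℕ × List ℕ) := [(23, [984818244535754528103549039458486304, 722362356691794972982243558133072963, 54011630939625458231379266533243633, 9925086529669112653616052149214661, 92714048695959950688749351228347959, 132749226366310754216646193449188081, 597774128110359607070997797366991873, 222718116131712103283380056249960480]),
   (5, [984818244535754528103549039458486304, 977058663046601592118128251594935328]),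
   (0, [984818244535754528103549039458486304, 970538992418718774876113737513730146, 965944937520006662298581468641756227, 976329729292257684172973333205289985]),
   (4, [984818244535754528103549039458486304, 975346028712660580592452217730074656, 971592882964418941354553515258775584, 963721886883755259286232606933354528, 976448692869377735270425038196672544, 983548720921252936276249910206105632, 966182099583441531322624363496310816, 967812279691448225500382947153381408, 968708902336673183175954409307867168, 979121071158219704299181131031480352, 980224387687010295957922729495201824, 972512676110088067912772961567868960, 965128854020860192151391391390468128, 970499966350631336865513127433832480, 981818691054096003685363657089320992, 961365507626256404119956257276790816])]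
/-- a Sylow 2-subgroup -/
def sT : Subgroup M24 := closure (els M24 24 5 G.pt (flat LsT))
theorem chsT : Chn 24 5 G.pt LsT sT :=
  Chn.of_schOK inj_pt faithful_M24 (by decide) (by decide) (top_of_okL (by decide +kernel)) (by decide +kernel)
theorem card_sT : Nat.card sT = 2 ^ 10 := (chsT.card inj_pt).trans (by decide +kernel)
theorem card_sT1 : Nat.card ↥(sT ⊓ m23) = 2 ^ 7 := (chsT.tail.card inj_pt).trans (by decide +kernel)
/-- generators of the point stabiliser -/
def gsT1 : List ℕ := [960920536274917839439896939967022147, 980538127516014022742154540581159010, 980418894068786256412233193343713347]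
/-- generators -/
def gsT : List ℕ := 54011630939625458231379266533243633 :: gsT1
theorem in_sT : In 24 5 G.pt sT gsT :=
  (chsT.tst inj_pt faithful_M24 (by decide) (by decide)).list' (top_of_okL (by decide +kernel)) (by decide +kernel)
theorem in_sT1 : In 24 5 G.pt (sT ⊓ m23) gsT1 :=
  (chsT.tail.tst inj_pt faithful_M24 (by decide) (by decide)).list' (top_of_okL (by decide +kernel)) (by decide +kernel)

theorem card_m23_oct : Nat.card ↥(m23 ⊓ stabilizer M24 (G.toF 8536111)) = 40320 :=
  (ch23.card_stab (by decide)).trans (by decide +kernel)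

theorem card_m23_duad : Nat.card ↥(m23 ⊓ stabilizer M24 (G.toF 16416)) = 40320 :=
  (ch23.card_stab' mem23 (c := 968667820750812822756595735495020916) (by decide +kernel) _).trans (by decide +kernel)

theorem le_oct_or_duad {K : Subgroup M24} (h1 : sT ⊓ m23 ≤ K) (h2 : K ≤ m23) (h7 : 7 ∣ Nat.card K)
    (h11 : ¬11 ∣ Nat.card K) (h23 : ¬23 ∣ Nat.card K) :
    K ≤ m23 ⊓ stabilizer M24 (G.toF 8536111) ∨ K ≤ m23 ⊓ stabilizer M24 (G.toF 16416) := by
  have h3 := h2.trans (stab_pt_le (by decide))
  obtain ⟨m, a, b, c, d⟩ := exists_orbit_mask (In.mono in_sT1 h1) (i := 0) (by decide) h3 (by decide) (k := 4)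
    (t := fun m => Nat.beq m 147503 || Nat.beq m 8372191 || Nat.blt 3 (pc m % 7) || Nat.beq (pc m) 22 || Nat.beq (pc m) 23)
    (rs := [17, 5, 4]) (by decide +kernel)
  have := pc_mod_seven h7 a c
  simp only [Bool.or_eq_true, Nat.beq_eq, Nat.blt_eq] at b
  rcases b with (((b | b) | b) | b) | b
  · exact .inl (le_inf h2 ((show Nat.lor m (2 ^ 23) = 8536111 by rw [b]; decide) ▸ stab_lor c h3))
  · exact .inr (le_inf h2 ((show Nat.xor (Nat.lor m (2 ^ 23)) 16777215 = 16416 by rw [b]; decide) ▸
      stab_xor (stab_lor c h3)))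
  · omega
  all_goals rw [b] at d; omega

end Cfsg.Lib.Mathieu
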