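import Cfsg.Agent.Lib.Mathieu.Index

/-! Self-centralising elements of prime order in subgroups of `M24`. -/

namespace Cfsg.Lib.Mathieu

open Cfsg.Lib.Golay Cfsg.Lib.Calc Cfsg.Lib.Grp MulAction Subgroup

theorem selfC_of_card_inf {A : Type*} [Group A] [Finite A] {p : ℕ} [Fact p.Prime] {M : Subgroup A}
    (h : ¬p ^ 2 ∣ Nat.card M) {a : A} (ha : a ∈ M) (ho : orderOf a = p) (hc : Nat.card ↥(M ⊓ centralizer {a}) ≤ p) :
    SelfC p M := by
  refine SelfC.of_card h (a := ⟨a, ha⟩) ((orderOf_coe _).symm.trans ho) (le_trans (le_of_eq ?_) hc)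
  rw [← Nat.card_congr (subgroupOfEquivOfLe (inf_le_left : M ⊓ centralizer {a} ≤ M)).toEquiv, inf_subgroupOf_left]
  congr 2
  ext x
  simp only [mem_subgroupOf, mem_cen, Subtype.ext_iff, coe_mul]

theorem mem_normalizer_zpowers_of_eq {A : Type*} [Group A] [Finite A] {g x : A} {k : ℕ} (h : g * x * g⁻¹ = x ^ k) :
    g ∈ normalizer (zpowers x : Set A) := mem_normalizer_fintype fun y hy => by
  obtain ⟨n, rfl⟩ := hy
  rw [← conj_zpow, h]
  exact zpow_mem (pow_mem (mem_zpowers x) k) n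

theorem Ch.selfC {L : List (ℕ × List ℕ)} {M : Subgroup M24} (hL : Ch L M) {t : ℕ → Bool} (ht : Mem M t) {p c : ℕ}
    [Fact p.Prime] (h : ¬p ^ 2 ∣ chSize L)
    (e : band (band (tOK t c) (Nat.beq (ordT c) p)) (Nat.ble (cenOrd 24 5 L [1, 2] c) p) = true) :
    SelfC p M ∧ Nat.card (zpowers (Mathieu.mk c)) = p ∧ Mathieu.mk c ∈ M ∧ R (Mathieu.mk c) c := by
  rw [band_eq_true, band_eq_true, Nat.beq_eq, Nat.ble_eq] at e
  obtain ⟨h1, h2⟩ := ht.mk_mem e.1.1
  have o := (h2.orderOf_eq (e.1.2 ▸ (Fact.out : p.Prime).ne_zero)).trans e.1.2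
  exact ⟨selfC_of_card_inf (hL.card ▸ h) h1 o
    ((card_cen inj_pt faithful_M24 (by decide) (by decide) hL.chn h2 _).trans_le e.2), (Nat.card_zpowers _).trans o, h1, h2⟩

theorem R.mem_normalizer {g x : M24} {c d : ℕ} (hg : R g c) (hx : R x d) {k : ℕ}
    (e : Nat.beq (Mathieu.mulT c d) (Mathieu.mulT (Mathieu.powT d k) c) = true) : g ∈ normalizer (zpowers x : Set M24) :=
  mem_normalizer_zpowers_of_eq (k := k) (by
    rw [((hg.mulT hx).eq_iff ((hx.powT k).mulT hg)).2 (Nat.eq_of_beq_eq_true e), mul_inv_cancel_right])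

end Cfsg.Lib.Mathieu
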